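import Cfsg.Agent.H252.LT.Rows
import Cfsg.Agent.H215.L2Out.Cent

/-!
# S2927: good elements of `Y` (lemma G) and the rows with `|Y ∩ K| = 4`

* `exists_z`: a normal subgroup of even order contains an involution central in the Sylow subgroup `S`;
* `Cx.chP_cent`: for `x ∈ Y` and `K` normal with `C_K(x)` of characteristic 2 the group `C_G(x)` has characteristic 2;
* `Cx.good_of_KG`: if all involution centralizers of `K` have characteristic 2, all elements of `Y ∩ K` are good;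
* `Cx.Y_le_of_card_four`: if `G/K` is an abelian 2-group and `|Y ∩ K| = 4` then `Y ≤ K`.
-/

set_option autoImplicit false
set_option linter.unusedSectionVars false
open Cfsg Subgroup
open Cfsg.Agent.H229 Cfsg.Agent.H230 Cfsg.Agent.H252.LT

namespace Cfsg.Agent.H215.LT

universe u

variable {G : Type u} [Group G] [Finite G] {S : Sylow 2 G} {Q M : Subgroup G}

theorem normal_norm {K : Subgroup G} (hK : K.Normal) (H : Subgroup G) : H ≤ normalizer (K : Set G) := by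
  rw [Subgroup.normalizer_eq_top_iff.2 hK]; exact le_top

/-- an involution of the normal subgroup `K` central in `S` -/
theorem exists_z (S : Sylow 2 G) (K : Subgroup G) [hK : K.Normal] (h2 : 2 ∣ Nat.card ↥K) :
    ∃ z ∈ K, z ∈ (S : Subgroup G) ∧ z ∈ centralizer ((S : Subgroup G) : Set G) ∧ z ^ 2 = 1 ∧ z ≠ 1 := by
  have hfact : Fact (Nat.Prime 2) := ⟨Nat.prime_two⟩
  -- `S ∩ K ≠ 1`
  have h1 : (S : Subgroup G) ⊓ K ≠ ⊥ := by
    obtain ⟨t, ht⟩ := exists_prime_orderOf_dvd_card' (G := ↥K) 2 h2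
    have ht' : orderOf (t : G) = 2 := by rw [Subgroup.orderOf_coe, ht]
    have hp : IsPGroup 2 (zpowers (t : G)) := by
      rw [IsPGroup.iff_card]
      exact ⟨1, by rw [Nat.card_zpowers, ht', pow_one]⟩
    obtain ⟨P, hP⟩ := hp.exists_le_sylow
    obtain ⟨g, hg⟩ := MulAction.exists_smul_eq G P S
    have h3 : g * t * g⁻¹ ∈ (S : Subgroup G) := by
      rw [← hg, Sylow.coe_subgroup_smul]
      exact Subgroup.smul_mem_pointwise_smul (t : G) (MulAut.conj g) _ (hP (mem_zpowers _))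
    intro h4
    have h5 : g * t * g⁻¹ ∈ (S : Subgroup G) ⊓ K := ⟨h3, hK.conj_mem _ t.2 g⟩
    rw [h4, mem_bot] at h5
    have h6 : (t : G) = 1 := by
      have : (t : G) = g⁻¹ * (g * t * g⁻¹) * g := by group
      rw [this, h5]; group
    rw [h6, orderOf_one] at ht'
    omega
  have h3 := PLocal.OffenderStep.inf_centralizer_ne_bot ((S : Subgroup G) ⊓ K) (S : Subgroup G)
    (S.2.to_le inf_le_left) S.2 ((le_inf le_normalizer (normal_norm hK _)).trans (norm_inf_le _ _)) h1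
  obtain ⟨⟨w, hw⟩, hw1⟩ := Subgroup.ne_bot_iff_exists_ne_one.1 h3
  have hw1' : w ≠ 1 := fun h => hw1 (Subtype.ext h)
  have hp : IsPGroup 2 ↥((S : Subgroup G) ⊓ K ⊓ centralizer ((S : Subgroup G) : Set G)) :=
    S.2.to_le (inf_le_left.trans inf_le_left)
  obtain ⟨k, hk⟩ := hp ⟨w, hw⟩
  have hk' : w ^ 2 ^ k = 1 := congrArg Subtype.val hk
  have ho : ∃ n : ℕ, w ^ n ≠ 1 ∧ (w ^ n) ^ 2 = 1 := by
    induction k with
    | zero => exact absurd (by simpa using hk') hw1'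
    | succ k ih =>
      by_cases h5 : w ^ 2 ^ k = 1
      · exact ih (Subtype.ext h5) h5
      · exact ⟨2 ^ k, h5, by rw [← pow_mul, ← pow_succ]; exact hk'⟩
  obtain ⟨n, hn1, hn2⟩ := ho
  have hmem : w ^ n ∈ (S : Subgroup G) ⊓ K ⊓ centralizer ((S : Subgroup G) : Set G) := pow_mem hw n
  exact ⟨w ^ n, hmem.1.2, hmem.1.1, hmem.2, hn2, hn1⟩

/-- elements of `Y` have square 1 and commute with `O₂(M)` -/
theorem pow_two_of_mem (c : Cx S Q M) {x : G} (hx : x ∈ largestPReducedOf 2 M) : x ^ 2 = 1 := c.Y_ea.2 _ hx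

theorem mem_S_of_mem (c : Cx S Q M) {x : G} (hx : x ∈ largestPReducedOf 2 M) : x ∈ (S : Subgroup G) :=
  c.T_le_S (c.Y_le_T hx)

/-- **Lemma G.** -/
theorem chP_cent (c : Cx S Q M) {K : Subgroup G} [hK : K.Normal] (h2 : 2 ∣ Nat.card ↥K) {x : G}
    (hx : x ∈ largestPReducedOf 2 M) (hN : ChP 2 (K ⊓ centralizer ({x} : Set G))) :
    ChP 2 (centralizer ({x} : Set G)) := by
  have hfact : Fact (Nat.Prime 2) := ⟨Nat.prime_two⟩
  obtain ⟨z, hzK, hzS, hzc, hz2, hz1⟩ := exists_z S K h2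
  have hxS := mem_S_of_mem c hx
  have hxz : x * z = z * x := mem_centralizer_iff.1 hzc x hxS
  have hSC : (S : Subgroup G) ≤ centralizer ({z} : Set G) := by
    intro s hs
    rw [mem_centralizer_singleton_iff]
    exact mem_centralizer_iff.1 hzc s hs
  have hC : ChP 2 (centralizer ({z} : Set G)) := by
    refine c.chP_of_S hSC fun h => ?_
    have h3 : zpowers z ≤ pCoreOf 2 (centralizer ({z} : Set G)) := by
      refine H229.le_pCoreOf ?_ ?_ ?_
      · rw [zpowers_le, mem_centralizer_singleton_iff]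
      · exact (centralizer_singleton_le_zpowers z).trans (centralizer_le_norm _)
      · rw [IsPGroup.iff_card]
        exact ⟨1, by rw [Nat.card_zpowers, pow_one]; exact orderOf_eq_prime hz2 hz1⟩
    rw [h, le_bot_iff, zpowers_eq_bot] at h3
    exact hz1 h3
  rw [chP_iff] at hN hC ⊢
  exact L2Out.Cent.cp_centralizer K (p := 2) ⟨1, by rw [pow_one]; exact pow_two_of_mem c hx⟩ hzK hxz hN hC

/-- `ChP` for a subgroup of a subgroup -/
theorem chP_map {K : Subgroup G} {L : Subgroup ↥K} (h : ChP 2 L) : ChP 2 (L.map K.subtype) := by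
  rw [chP_iff] at h ⊢
  exact H239.CharPLocal.CP.of_equiv (p := 2) (L.equivMapOfInjective K.subtype K.subtype_injective) h

theorem map_centralizer {K : Subgroup G} {x : G} (hx : x ∈ K) :
    (centralizer ({(⟨x, hx⟩ : ↥K)} : Set ↥K)).map K.subtype = K ⊓ centralizer ({x} : Set G) := by
  ext g
  rw [mem_inf, mem_centralizer_singleton_iff]
  constructor
  · rintro ⟨y, hy, rfl⟩
    have hy' := mem_centralizer_singleton_iff.1 hy
    exact ⟨y.2, congrArg Subtype.val hy'⟩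
  · rintro ⟨hg, hc⟩
    exact ⟨⟨g, hg⟩, mem_centralizer_singleton_iff.2 (Subtype.ext hc), rfl⟩

/-- if all involution centralizers of `K` have characteristic 2, the elements of `Y ∩ K` are good -/
theorem good_of_KG (c : Cx S Q M) {K : Subgroup G} [hK : K.Normal] (h2 : 2 ∣ Nat.card ↥K) (h : KG ↥K) {x : G}
    (hx : x ∈ largestPReducedOf 2 M) (hxK : x ∈ K) (hx1 : x ≠ 1) : ChP 2 (centralizer ({x} : Set G)) := by
  refine chP_cent c h2 hx ?_
  rw [← map_centralizer hxK]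
  refine chP_map (h ⟨x, hxK⟩ (fun h3 => hx1 (congrArg Subtype.val h3)) (Subtype.ext ?_))
  exact pow_two_of_mem c hx

/-- a bad element outside `K` -/
theorem exists_bad_of_KG (c : Cx S Q M) {K : Subgroup G} [hK : K.Normal] (h2 : 2 ∣ Nat.card ↥K) (h : KG ↥K) :
    ∃ x ∈ largestPReducedOf 2 M, x ∉ K ∧ ¬ ChP 2 (centralizer ({x} : Set G)) := by
  obtain ⟨x, hx, hx1, hb⟩ := c.bad
  exact ⟨x, hx, fun hxK => hb (good_of_KG c h2 h hx hxK hx1), hb⟩

/-! ### `|Y ∩ K| = 4` -/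

/-- `g` acts on `W` without fixed points -/
def Fpf (W : Subgroup G) (g : G) : Prop := ∀ y ∈ W, g * y * g⁻¹ = y → y = 1

section four

variable {W : Subgroup G}

theorem four_cases (h4 : Nat.card ↥W ≤ 4) (h2 : ∀ w ∈ W, w ^ 2 = 1) {a b : G} (ha : a ∈ W) (hb : b ∈ W)
    (ha1 : a ≠ 1) (hb1 : b ≠ 1) (hab : a ≠ b) {y : G} (hy : y ∈ W) : y = 1 ∨ y = a ∨ y = b ∨ y = a * b := by
  classical
  have hfin : Fintype ↥W := Fintype.ofFinite _
  have e2 : a * a = 1 := by rw [← pow_two]; exact h2 a ha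
  have hab1 : a * b ≠ 1 := fun h => hab (by
    calc a = a * (a * b) := by rw [h, mul_one]
      _ = b := by rw [← mul_assoc, e2, one_mul])
  have hab2 : a * b ≠ a := fun h => hb1 (mul_eq_left.1 h)
  have hab3 : a * b ≠ b := fun h => ha1 (mul_eq_right.1 h)
  by_contra hcon
  push Not at hcon
  obtain ⟨h0, h1, h3, h5⟩ := hcon
  have hs : ({⟨1, one_mem W⟩, ⟨a, ha⟩, ⟨b, hb⟩, ⟨a * b, mul_mem ha hb⟩, ⟨y, hy⟩} : Finset ↥W).card = 5 := by
    rw [Finset.card_insert_of_notMem, Finset.card_insert_of_notMem, Finset.card_insert_of_notMem,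
      Finset.card_insert_of_notMem, Finset.card_singleton]
    · simp only [Finset.mem_singleton, Subtype.mk.injEq]; exact fun h => h5 h.symm
    · simp only [Finset.mem_insert, Finset.mem_singleton, Subtype.mk.injEq]
      rintro (h | h)
      · exact hab3 h.symm
      · exact h3 h.symm
    · simp only [Finset.mem_insert, Finset.mem_singleton, Subtype.mk.injEq]
      rintro (h | h | h)
      · exact hab h
      · exact hab2 h.symm
      · exact h1 h.symm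
    · simp only [Finset.mem_insert, Finset.mem_singleton, Subtype.mk.injEq]
      rintro (h | h | h | h)
      · exact ha1 h.symm
      · exact hb1 h.symm
      · exact hab1 h.symm
      · exact h0 h.symm
  have h6 := Finset.card_le_univ ({⟨1, one_mem W⟩, ⟨a, ha⟩, ⟨b, hb⟩, ⟨a * b, mul_mem ha hb⟩, ⟨y, hy⟩} : Finset ↥W)
  rw [hs, ← Nat.card_eq_fintype_card] at h6
  omega

variable (h4 : Nat.card ↥W ≤ 4) (h2 : ∀ w ∈ W, w ^ 2 = 1) (hcom : ∀ a ∈ W, ∀ b ∈ W, a * b = b * a)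

include h4 h2 hcom

/-- `y^{g²} = y y^g` -/
theorem Fpf.sq {g : G} (hg : ∀ w ∈ W, g * w * g⁻¹ ∈ W) (h : Fpf W g) {y : G} (hy : y ∈ W) :
    g ^ 2 * y * (g ^ 2)⁻¹ = y * (g * y * g⁻¹) := by
  have e0 : g ^ 2 * y * (g ^ 2)⁻¹ = g * (g * y * g⁻¹) * g⁻¹ := by rw [pow_two]; group
  rw [e0]
  by_cases hy1 : y = 1
  · rw [hy1]; group
  obtain ⟨a, ha⟩ : ∃ a, a = g * y * g⁻¹ := ⟨_, rfl⟩
  rw [← ha]
  have haW : a ∈ W := by rw [ha]; exact hg y hy
  have ha1 : a ≠ 1 := by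
    intro h1
    apply hy1
    have : y = g⁻¹ * (g * y * g⁻¹) * g := by group
    rw [this, ← ha, h1]; group
  have hya : y ≠ a := fun h1 => hy1 (h y hy (by rw [← ha, ← h1]))
  rcases four_cases h4 h2 hy haW hy1 ha1 hya (hg a haW) with h1 | h1 | h1 | h1
  · exfalso
    apply ha1
    have : a = g⁻¹ * (g * a * g⁻¹) * g := by group
    rw [this, h1]; group
  · exfalso
    have e1 : g * (y * a) * g⁻¹ = y * a := by
      have : g * (y * a) * g⁻¹ = (g * y * g⁻¹) * (g * a * g⁻¹) := by group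
      rw [this, ← ha, h1, hcom a haW y hy]
    have e2 := h _ (mul_mem hy haW) e1
    apply hya
    calc y = y * (y * a) := by rw [e2, mul_one]
      _ = y ^ 2 * a := by rw [pow_two, mul_assoc]
      _ = a := by rw [h2 y hy, one_mul]
  · exfalso
    exact ha1 (h a haW h1)
  · exact h1

/-- the square of a fixed-point-free element is fixed-point-free -/
theorem Fpf.sq_fpf {g : G} (hg : ∀ w ∈ W, g * w * g⁻¹ ∈ W) (h : Fpf W g) : Fpf W (g ^ 2) := by
  intro y hy h1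
  rw [Fpf.sq h4 h2 hcom hg h hy] at h1
  have h3 : g * y * g⁻¹ = 1 := mul_eq_left.1 h1
  calc y = g⁻¹ * (g * y * g⁻¹) * g := by group
    _ = 1 := by rw [h3]; group

theorem Fpf.cube {g : G} (hg : ∀ w ∈ W, g * w * g⁻¹ ∈ W) (h : Fpf W g) {y : G} (hy : y ∈ W) :
    g ^ 3 * y * (g ^ 3)⁻¹ = y := by
  have e1 : g ^ 3 * y * (g ^ 3)⁻¹ = g * (g ^ 2 * y * (g ^ 2)⁻¹) * g⁻¹ := by
    rw [pow_succ' g 2]; group
  have e2 : g * (y * (g * y * g⁻¹)) * g⁻¹ = (g * y * g⁻¹) * (g ^ 2 * y * (g ^ 2)⁻¹) := by rw [pow_two]; group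
  rw [e1, Fpf.sq h4 h2 hcom hg h hy, e2, Fpf.sq h4 h2 hcom hg h hy, ← mul_assoc, hcom _ (hg y hy) y hy, mul_assoc,
    ← pow_two, h2 _ (hg y hy), mul_one]

/-- two fixed-point-free elements agreeing in one element agree -/
theorem Fpf.eq_of_eq {g k : G} (hg : ∀ w ∈ W, g * w * g⁻¹ ∈ W) (hk : ∀ w ∈ W, k * w * k⁻¹ ∈ W) (h : Fpf W g)
    (h' : Fpf W k) {a : G} (ha : a ∈ W) (ha1 : a ≠ 1) (he : k * a * k⁻¹ = g * a * g⁻¹) {y : G} (hy : y ∈ W) :
    k * y * k⁻¹ = g * y * g⁻¹ := by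
  obtain ⟨b, hb⟩ : ∃ b, b = g * a * g⁻¹ := ⟨_, rfl⟩
  have hbW : b ∈ W := by rw [hb]; exact hg a ha
  have hb1 : b ≠ 1 := by
    intro h1
    apply ha1
    have : a = g⁻¹ * (g * a * g⁻¹) * g := by group
    rw [this, ← hb, h1]; group
  have hab : a ≠ b := fun h1 => ha1 (h a ha (by rw [← hb, ← h1]))
  have e1 : k * b * k⁻¹ = g * b * g⁻¹ := by
    have e2 := Fpf.sq h4 h2 hcom hg h ha
    have e3 := Fpf.sq h4 h2 hcom hk h' ha
    have e4 : g ^ 2 * a * (g ^ 2)⁻¹ = g * b * g⁻¹ := by rw [hb, pow_two]; group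
    have e5 : k ^ 2 * a * (k ^ 2)⁻¹ = k * b * k⁻¹ := by rw [hb, ← he, pow_two]; group
    rw [← e4, ← e5, e2, e3, he]
  rcases four_cases h4 h2 ha hbW ha1 hb1 hab hy with rfl | rfl | rfl | rfl
  · group
  · exact he
  · exact e1
  · have e6 : k * (a * b) * k⁻¹ = (k * a * k⁻¹) * (k * b * k⁻¹) := by group
    rw [e6, he, e1]; group

/-- two fixed-point-free elements agree or one agrees with the square of the other -/
theorem Fpf.dichotomy {g k : G} (hg : ∀ w ∈ W, g * w * g⁻¹ ∈ W) (hk : ∀ w ∈ W, k * w * k⁻¹ ∈ W) (h : Fpf W g)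
    (h' : Fpf W k) {a : G} (ha : a ∈ W) (ha1 : a ≠ 1) :
    (∀ y ∈ W, k * y * k⁻¹ = g * y * g⁻¹) ∨ (∀ y ∈ W, k * y * k⁻¹ = g ^ 2 * y * (g ^ 2)⁻¹) := by
  have hg2 : ∀ w ∈ W, g ^ 2 * w * (g ^ 2)⁻¹ ∈ W := by
    intro w hw
    have e : g ^ 2 * w * (g ^ 2)⁻¹ = g * (g * w * g⁻¹) * g⁻¹ := by rw [pow_two]; group
    rw [e]
    exact hg _ (hg w hw)
  have hbW := hg a ha
  have hb1 : g * a * g⁻¹ ≠ 1 := by
    intro h1
    apply ha1
    have : a = g⁻¹ * (g * a * g⁻¹) * g := by group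
    rw [this, h1]; group
  have hab : a ≠ g * a * g⁻¹ := fun h1 => ha1 (h a ha h1.symm)
  rcases four_cases h4 h2 ha hbW ha1 hb1 hab (hk a ha) with h1 | h1 | h1 | h1
  · exfalso
    apply ha1
    have : a = k⁻¹ * (k * a * k⁻¹) * k := by group
    rw [this, h1]; group
  · exact absurd (h' a ha h1) ha1
  · left
    exact fun y hy => Fpf.eq_of_eq h4 h2 hcom hg hk h h' ha ha1 h1 hy
  · right
    intro y hy
    refine Fpf.eq_of_eq h4 h2 hcom hg2 hk (Fpf.sq_fpf h4 h2 hcom hg h) h' ha ha1 ?_ hy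
    rw [h1, Fpf.sq h4 h2 hcom hg h ha]

end four

/-- `M` acts on `Y ∩ K` -/
theorem conj_mem_inf (_c : Cx S Q M) {K : Subgroup G} (hK : K.Normal) {m : G} (hm : m ∈ M) :
    ∀ w ∈ largestPReducedOf 2 M ⊓ K, m * w * m⁻¹ ∈ largestPReducedOf 2 M ⊓ K := by
  rintro w ⟨hw, hwK⟩
  exact ⟨(mem_normalizer_iff.1 (largest_normal 2 M hm) w).1 hw, hK.conj_mem w hwK m⟩

/-- some element of `M` acts fixed-point-freely on `Y ∩ K` -/
theorem exists_fpf (c : Cx S Q M) {K : Subgroup G} (hK : K.Normal) (h2 : 2 ∣ Nat.card ↥K)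
    (h4 : Nat.card ↥(largestPReducedOf 2 M ⊓ K : Subgroup G) ≤ 4) :
    ∃ e ∈ M, Fpf (largestPReducedOf 2 M ⊓ K) e := by
  have hfact : Fact (Nat.Prime 2) := ⟨Nat.prime_two⟩
  obtain ⟨z, hzK, hzS, hzc, hz2, hz1⟩ := exists_z S K h2
  obtain ⟨W, hW⟩ : ∃ W, W = largestPReducedOf 2 M ⊓ K := ⟨_, rfl⟩
  have hact : ∀ m ∈ M, ∀ w ∈ W, m * w * m⁻¹ ∈ W := fun m hm => by rw [hW]; exact conj_mem_inf c hK hm
  rw [← hW] at h4 ⊢
  have hsq : ∀ w ∈ W, w ^ 2 = 1 := fun w hw => by rw [hW] at hw; exact c.Y_ea.2 _ hw.1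
  have hcom : ∀ a ∈ W, ∀ b ∈ W, a * b = b * a := fun a ha b hb => by
    rw [hW] at ha hb; exact ea_comm c.Y_ea ha.1 hb.1
  have hzW : z ∈ W := by rw [hW]; exact ⟨c.center_mem_Y hzc hz2, hzK⟩
  have hne : ∀ m ∈ M, ∀ w ∈ W, w ≠ 1 → m * w * m⁻¹ ≠ 1 := by
    intro m _ w _ hw1 h
    apply hw1
    calc w = m⁻¹ * (m * w * m⁻¹) * m := by group
      _ = 1 := by rw [h]; group
  have hinj : ∀ m a b : G, m * a * m⁻¹ = m * b * m⁻¹ → a = b := by
    intro m a b h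
    calc a = m⁻¹ * (m * a * m⁻¹) * m := by group
      _ = m⁻¹ * (m * b * m⁻¹) * m := by rw [h]
      _ = b := by group
  -- `z` is moved
  obtain ⟨m₁, hm₁, hmz⟩ : ∃ m ∈ M, m * z * m⁻¹ ≠ z := by
    by_contra hcon
    push Not at hcon
    apply c.not_M_le hzc hz2 hz1
    intro m hm
    rw [mem_centralizer_singleton_iff]
    calc m * z = m * z * m⁻¹ * m := by group
      _ = z * m := by rw [hcon m hm]
  obtain ⟨w, hw⟩ : ∃ w, w = m₁ * z * m₁⁻¹ := ⟨_, rfl⟩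
  have hwW : w ∈ W := by rw [hw]; exact hact m₁ hm₁ z hzW
  have hw1 : w ≠ 1 := by rw [hw]; exact hne m₁ hm₁ z hzW hz1
  have hzw : z ≠ w := by rw [hw]; exact hmz.symm
  have cases := fun {y : G} (hy : y ∈ W) => four_cases h4 hsq hzW hwW hz1 hw1 hzw hy
  have hzz : z * z = 1 := by rw [← pow_two]; exact hz2
  have hww : w * w = 1 := by rw [← pow_two]; exact hsq w hwW
  have hwz : w * z = z * w := hcom w hwW z hzW
  have hzw1 : z * w ≠ 1 := fun h => hzw (by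
    calc z = z * (z * w) := by rw [h, mul_one]
      _ = w := by rw [← mul_assoc, hzz, one_mul])
  -- the orbit of `z` is not `{z, w}`
  obtain ⟨m₂, hm₂, hmzw⟩ : ∃ m ∈ M, m * z * m⁻¹ = z * w := by
    by_contra hcon
    push Not at hcon
    have horb : ∀ m ∈ M, m * z * m⁻¹ = z ∨ m * z * m⁻¹ = w := by
      intro m hm
      rcases cases (hact m hm z hzW) with h | h | h | h
      · exact absurd h (hne m hm z hzW hz1)
      · exact Or.inl h
      · exact Or.inr h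
      · exact absurd h (hcon m hm)
    have hSle : (S : Subgroup G) ≤ centralizer ({z} : Set G) := by
      intro s hs
      rw [mem_centralizer_singleton_iff]
      exact mem_centralizer_iff.1 hzc s hs
    have hodd : ¬ 2 ∣ (centralizer ({z} : Set G)).relIndex M := by
      intro hdv
      refine S.not_dvd_index (hdv.trans ?_)
      refine (relIndex_dvd_of_le_left M hSle).trans ?_
      exact relIndex_dvd_index_of_le c.st.SM
    apply hodd
    have hidx : ((centralizer ({z} : Set G)).subgroupOf M).index = 2 := by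
      rw [Subgroup.index_eq_two_iff']
      refine ⟨⟨m₁, hm₁⟩⁻¹, fun b => ?_⟩
      rw [mem_subgroupOf, mem_subgroupOf, mem_centralizer_singleton_iff, mem_centralizer_singleton_iff]
      have e1 : ((⟨m₁, hm₁⟩⁻¹ * b : ↥M) : G) = m₁⁻¹ * b := rfl
      rw [e1]
      have hcz : ∀ g : G, g * z = z * g ↔ g * z * g⁻¹ = z := fun g => by
        constructor
        · intro h; rw [h]; group
        · intro h
          calc g * z = g * z * g⁻¹ * g := by group
            _ = z * g := by rw [h]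
      rw [hcz, hcz]
      have e2 : m₁⁻¹ * b * z * (m₁⁻¹ * b)⁻¹ = z ↔ (b : G) * z * (b : G)⁻¹ = w := by
        constructor
        · intro h
          calc (b : G) * z * (b : G)⁻¹ = m₁ * (m₁⁻¹ * b * z * (m₁⁻¹ * b)⁻¹) * m₁⁻¹ := by group
            _ = w := by rw [h, hw]
        · intro h
          calc m₁⁻¹ * b * z * (m₁⁻¹ * b)⁻¹ = m₁⁻¹ * ((b : G) * z * (b : G)⁻¹) * m₁ := by group
            _ = z := by rw [h, hw]; group
      rw [e2]
      rcases horb b b.2 with h | h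
      · exact Or.inr ⟨h, fun h' => hzw (h.symm.trans h')⟩
      · exact Or.inl ⟨h, fun h' => hzw (h'.symm.trans h)⟩
    unfold relIndex
    rw [hidx]
  -- if `m ∈ M` is not fixed-point-free it fixes one of `w`, `z w`
  have hmul : ∀ m a b : G, m * (a * b) * m⁻¹ = (m * a * m⁻¹) * (m * b * m⁻¹) := by intro m a b; group
  by_contra hcon
  push Not at hcon
  have hfix : ∀ m ∈ M, ∃ y ∈ W, m * y * m⁻¹ = y ∧ y ≠ 1 := by
    intro m hm
    have := hcon m hm
    unfold Fpf at this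
    push Not at this
    exact this
  -- `m₁` interchanges `z` and `w`
  have h1 : m₁ * w * m₁⁻¹ = z := by
    obtain ⟨y, hy, hyf, hy1⟩ := hfix m₁ hm₁
    rcases cases hy with rfl | rfl | rfl | rfl
    · exact absurd rfl hy1
    · exact absurd hyf hmz
    · exfalso
      exact hzw (hinj m₁ _ _ (by rw [hyf, ← hw]))
    · rw [hmul, ← hw] at hyf
      calc m₁ * w * m₁⁻¹ = w * (w * (m₁ * w * m₁⁻¹)) := by rw [← mul_assoc, hww, one_mul]
        _ = w * (z * w) := by rw [hyf]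
        _ = w * (w * z) := by rw [hwz]
        _ = z := by rw [← mul_assoc, hww, one_mul]
  -- `m₂` interchanges `z` and `z w`, fixes `w`
  have h2' : m₂ * w * m₂⁻¹ = w := by
    obtain ⟨y, hy, hyf, hy1⟩ := hfix m₂ hm₂
    rcases cases hy with rfl | rfl | rfl | rfl
    · exact absurd rfl hy1
    · exfalso
      rw [hmzw] at hyf
      exact hw1 (mul_eq_left.1 hyf)
    · exact hyf
    · exfalso
      rw [hmul, hmzw] at hyf
      have h5 : m₂ * w * m₂⁻¹ = 1 := mul_eq_left.1 hyf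
      exact hne m₂ hm₂ w hwW hw1 h5
  -- the product is fixed-point-free
  obtain ⟨y, hy, hyf, hy1⟩ := hfix (m₁ * m₂) (M.mul_mem hm₁ hm₂)
  have h6 : ∀ y : G, m₁ * m₂ * y * (m₁ * m₂)⁻¹ = m₁ * (m₂ * y * m₂⁻¹) * m₁⁻¹ := by intro y; group
  rw [h6] at hyf
  rcases cases hy with rfl | rfl | rfl | rfl
  · exact absurd rfl hy1
  · rw [hmzw, hmul, ← hw, h1] at hyf
    rw [hwz] at hyf
    exact hw1 (mul_eq_left.1 hyf)
  · rw [h2', h1] at hyf
    exact hzw hyf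
  · have h7 : m₂ * (z * w) * m₂⁻¹ = z := by rw [hmul, hmzw, h2', mul_assoc, hww, mul_one]
    rw [h7, ← hw] at hyf
    exact hz1 (mul_eq_right.1 hyf.symm)

/-- **If `G/K` is an abelian 2-group and `|Y ∩ K| ≤ 4` then `Y ≤ K`.** -/
theorem Y_le_of_card_four (c : Cx S Q M) {K : Subgroup G} (hK : K.Normal) (h2 : 2 ∣ Nat.card ↥K)
    (h4 : Nat.card ↥(largestPReducedOf 2 M ⊓ K : Subgroup G) ≤ 4)
    (hab : ∀ a b : G, a * b * a⁻¹ * b⁻¹ ∈ K) (hG2 : ∀ g : G, ∃ k : ℕ, g ^ 2 ^ k ∈ K) :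
    largestPReducedOf 2 M ≤ K := by
  obtain ⟨e, heM, he⟩ := exists_fpf c hK h2 h4
  obtain ⟨Y, hY⟩ : ∃ Y, Y = largestPReducedOf 2 M := ⟨_, rfl⟩
  obtain ⟨W, hW⟩ : ∃ W, W = largestPReducedOf 2 M ⊓ K := ⟨_, rfl⟩
  have hact : ∀ m ∈ M, ∀ w ∈ W, m * w * m⁻¹ ∈ W := fun m hm => by rw [hW]; exact conj_mem_inf c hK hm
  have hWY : W ≤ Y := by rw [hW, hY]; exact inf_le_left
  have hactY : ∀ m ∈ M, ∀ w ∈ Y, m * w * m⁻¹ ∈ Y := fun m hm w hw => by
    rw [hY] at hw ⊢; exact (mem_normalizer_iff.1 (largest_normal 2 M hm) w).1 hw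
  have hsqY : ∀ w ∈ Y, w ^ 2 = 1 := fun w hw => by rw [hY] at hw; exact c.Y_ea.2 _ hw
  have hcomY : ∀ a ∈ Y, ∀ b ∈ Y, a * b = b * a := fun a ha b hb => by rw [hY] at ha hb; exact ea_comm c.Y_ea ha hb
  have hcl := c.cent_inf_le (K := K)
  rw [← hW] at h4 he hcl
  rw [← hY] at hcl ⊢
  have hsq : ∀ w ∈ W, w ^ 2 = 1 := fun w hw => hsqY w (hWY hw)
  have hcom : ∀ a ∈ W, ∀ b ∈ W, a * b = b * a := fun a ha b hb => hcomY a (hWY ha) b (hWY hb)
  -- a fixed-point-free element of `M ∩ K`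
  obtain ⟨d, hdM, hdK, hd⟩ : ∃ d ∈ M, d ∈ K ∧ Fpf W d := by
    obtain ⟨k, hk⟩ := hG2 e
    refine ⟨e ^ 2 ^ k, pow_mem heM _, hk, ?_⟩
    clear hk
    induction k with
    | zero => rw [pow_zero, pow_one]; exact he
    | succ k ih =>
      rw [pow_succ, pow_mul]
      exact Fpf.sq_fpf h4 hsq hcom (hact _ (pow_mem heM _)) ih
  -- elements of `M ∩ K` centralising `W` centralise `Y`
  have hcent : ∀ b ∈ M, b ∈ K → (∀ w ∈ W, b * w * b⁻¹ = w) → ∀ y ∈ Y, b * y * b⁻¹ = y := by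
    intro b hbM hbK hb y hy
    have h1 : b ∈ centralizer (Y : Set G) := by
      refine hcl (mem_inf.2 ⟨mem_inf.2 ⟨hbM, hbK⟩, ?_⟩)
      rw [mem_centralizer_iff]
      intro w hw
      calc w * b = b * w * b⁻¹ * b := by rw [hb w hw]
        _ = b * w := by group
    rw [← mem_centralizer_iff.1 h1 y hy]; group
  have hd3 : ∀ y ∈ Y, d ^ 3 * y * (d ^ 3)⁻¹ = y :=
    hcent _ (pow_mem hdM 3) (pow_mem hdK 3) fun w hw => Fpf.cube h4 hsq hcom (hact d hdM) hd hw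
  intro x hx
  by_contra hxK
  -- the fixed point of `d`
  obtain ⟨x₁, hx₁⟩ : ∃ x₁, x₁ = d * x * d⁻¹ := ⟨_, rfl⟩
  obtain ⟨x₂, hx₂⟩ : ∃ x₂, x₂ = d * x₁ * d⁻¹ := ⟨_, rfl⟩
  have hx₁Y : x₁ ∈ Y := by rw [hx₁]; exact hactY d hdM x hx
  have hx₂Y : x₂ ∈ Y := by rw [hx₂]; exact hactY d hdM x₁ hx₁Y
  have hx₃ : d * x₂ * d⁻¹ = x := by
    rw [← hd3 x hx, hx₂, hx₁, pow_succ' d 2, pow_two]; group
  obtain ⟨f, hf⟩ : ∃ f, f = x * x₁ * x₂ := ⟨_, rfl⟩
  have hfY : f ∈ Y := by rw [hf]; exact mul_mem (mul_mem hx hx₁Y) hx₂Y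
  have hfd : d * f * d⁻¹ = f := by
    calc d * f * d⁻¹ = (d * x * d⁻¹) * (d * x₁ * d⁻¹) * (d * x₂ * d⁻¹) := by rw [hf]; group
      _ = x₁ * x₂ * x := by rw [← hx₁, ← hx₂, hx₃]
      _ = x * (x₁ * x₂) := hcomY _ (mul_mem hx₁Y hx₂Y) x hx
      _ = f := by rw [hf, mul_assoc]
  have hfK : f ∉ K := by
    intro h
    apply hxK
    -- `x₁ x⁻¹`, `x₂ x₁⁻¹ ∈ K`
    have e1 : x₁ * x⁻¹ ∈ K := by
      have : x₁ * x⁻¹ = d * (x * d⁻¹ * x⁻¹) := by rw [hx₁]; group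
      rw [this]
      exact mul_mem hdK (hK.conj_mem _ (inv_mem hdK) x)
    have e2 : x₂ * x₁⁻¹ ∈ K := by
      have : x₂ * x₁⁻¹ = d * (x₁ * d⁻¹ * x₁⁻¹) := by rw [hx₂]; group
      rw [this]
      exact mul_mem hdK (hK.conj_mem _ (inv_mem hdK) x₁)
    -- `x = f (x₁ x₂)⁻¹`, `x₁ x₂ ∈ K` since `x₁² = 1`
    have e3 : x₁ * x₂ ∈ K := by
      have h5 : x₁ * x₁ = 1 := by rw [← pow_two]; exact hsqY x₁ hx₁Y
      have : x₁ * x₂ = x₂ * x₁⁻¹ := by
        rw [hcomY x₁ hx₁Y x₂ hx₂Y, inv_eq_of_mul_eq_one_left h5]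
      rw [this]
      exact e2
    have e4 : x = f * (x₁ * x₂)⁻¹ := by rw [hf]; group
    rw [e4]
    exact mul_mem h (inv_mem e3)
  -- `f` is centralised by `M`
  have hzne : ∃ a ∈ W, a ≠ 1 := by
    obtain ⟨z, hzK, hzS, hzc, hz2, hz1⟩ := exists_z S K h2
    exact ⟨z, by rw [hW]; exact ⟨c.center_mem_Y hzc hz2, hzK⟩, hz1⟩
  obtain ⟨a, haW, ha1⟩ := hzne
  have hfM : M ≤ centralizer ({f} : Set G) := by
    intro m hm
    rw [mem_centralizer_singleton_iff]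
    obtain ⟨k, hk⟩ : ∃ k, k = m * d * m⁻¹ := ⟨_, rfl⟩
    have hkM : k ∈ M := by rw [hk]; exact mul_mem (mul_mem hm hdM) (inv_mem hm)
    have hkK : k ∈ K := by rw [hk]; exact hK.conj_mem d hdK m
    have hkf : Fpf W k := by
      intro y hy h
      have hy' : m⁻¹ * y * m ∈ W := by
        have := hact m⁻¹ (inv_mem hm) y hy
        rwa [inv_inv] at this
      have e1 : d * (m⁻¹ * y * m) * d⁻¹ = m⁻¹ * y * m := by
        calc d * (m⁻¹ * y * m) * d⁻¹ = m⁻¹ * (k * y * k⁻¹) * m := by rw [hk]; group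
          _ = _ := by rw [h]
      have e2 := hd _ hy' e1
      calc y = m * (m⁻¹ * y * m) * m⁻¹ := by group
        _ = 1 := by rw [e2]; group
    obtain ⟨f', hf'⟩ : ∃ f', f' = m * f * m⁻¹ := ⟨_, rfl⟩
    have hf'Y : f' ∈ Y := by rw [hf']; exact hactY m hm f hfY
    have hkf' : k * f' * k⁻¹ = f' := by
      calc k * f' * k⁻¹ = m * (d * f * d⁻¹) * m⁻¹ := by rw [hk, hf']; group
        _ = f' := by rw [hfd, hf']
    have hdf' : d * f' * d⁻¹ = f' := by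
      rcases Fpf.dichotomy h4 hsq hcom (hact d hdM) (hact k hkM) hd hkf haW ha1 with h | h
      · have e1 : ∀ y ∈ Y, (d⁻¹ * k) * y * (d⁻¹ * k)⁻¹ = y := by
          refine hcent _ (mul_mem (inv_mem hdM) hkM) (mul_mem (inv_mem hdK) hkK) fun w hw => ?_
          calc d⁻¹ * k * w * (d⁻¹ * k)⁻¹ = d⁻¹ * (k * w * k⁻¹) * d := by group
            _ = w := by rw [h w hw]; group
        have e2 := e1 f' hf'Y
        calc d * f' * d⁻¹ = d * (d⁻¹ * k * f' * (d⁻¹ * k)⁻¹) * d⁻¹ := by rw [e2]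
          _ = k * f' * k⁻¹ := by group
          _ = f' := hkf'
      · have e1 : ∀ y ∈ Y, ((d ^ 2)⁻¹ * k) * y * ((d ^ 2)⁻¹ * k)⁻¹ = y := by
          refine hcent _ (mul_mem (inv_mem (pow_mem hdM 2)) hkM) (mul_mem (inv_mem (pow_mem hdK 2)) hkK) fun w hw => ?_
          calc (d ^ 2)⁻¹ * k * w * ((d ^ 2)⁻¹ * k)⁻¹ = (d ^ 2)⁻¹ * (k * w * k⁻¹) * d ^ 2 := by group
            _ = w := by rw [h w hw]; group
        have e2 := e1 f' hf'Y
        have e3 : d ^ 2 * f' * (d ^ 2)⁻¹ = f' := by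
          calc d ^ 2 * f' * (d ^ 2)⁻¹ = d ^ 2 * ((d ^ 2)⁻¹ * k * f' * ((d ^ 2)⁻¹ * k)⁻¹) * (d ^ 2)⁻¹ := by rw [e2]
            _ = k * f' * k⁻¹ := by group
            _ = f' := hkf'
        calc d * f' * d⁻¹ = d * (d ^ 2 * f' * (d ^ 2)⁻¹) * d⁻¹ := by rw [e3]
          _ = d ^ 3 * f' * (d ^ 3)⁻¹ := by rw [pow_succ' d 2]; group
          _ = f' := hd3 f' hf'Y
    have e1 : f' * f⁻¹ ∈ W := by
      rw [hW, ← hY]
      refine mem_inf.2 ⟨mul_mem hf'Y (inv_mem hfY), ?_⟩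
      rw [hf']
      exact hab m f
    have e2 := hd _ e1 (by
      calc d * (f' * f⁻¹) * d⁻¹ = (d * f' * d⁻¹) * (d * f * d⁻¹)⁻¹ := by group
        _ = f' * f⁻¹ := by rw [hdf', hfd])
    have e3 : f' = f := mul_inv_eq_one.1 e2
    calc m * f = m * f * m⁻¹ * m := by group
      _ = f * m := by rw [← hf', e3]
  have h7 := c.fix f (by rw [← hY]; exact hfY) hfM
  exact hfK (h7 ▸ one_mem K)

end Cfsg.Agent.H215.LT
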