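import Cfsg.Agent.H215.LT.Good
import Cfsg.Agent.H215.L2Out.Main
import Cfsg.Agent.EvenType.ChevTwo
import Cfsg.Agent.H824.ProdLem
import Cfsg.Agent.Lib.SylowNormalInf

/-!
# S2927: the row of the groups of Lie type in characteristic 2

`deadL_chevTwo : DeadL (fun K _ => IsChevSimple 2 K)`.
-/

set_option autoImplicit false
set_option linter.unusedSectionVars false
open Cfsg Subgroup
open Cfsg.Agent.H229 Cfsg.Agent.H230 Cfsg.Agent.H252.LT

namespace Cfsg.Agent.H215.LT

universe u

/-- the centralizer of an involution is the normalizer of the group generated by it -/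
theorem normalizer_zpowers {K : Type*} [Group K] {z : K} (hz2 : z ^ 2 = 1) (hz1 : z ≠ 1) :
    normalizer ((zpowers z : Subgroup K) : Set K) = centralizer ({z} : Set K) := by
  have hmem : ∀ y : K, y ∈ zpowers z ↔ y = 1 ∨ y = z := by
    intro y
    constructor
    · rintro ⟨k, rfl⟩
      rcases Int.even_or_odd' k with ⟨m, rfl | rfl⟩
      · left
        change z ^ (2 * m) = 1
        rw [zpow_mul, zpow_ofNat, hz2, one_zpow]
      · right
        change z ^ (2 * m + 1) = z
        rw [zpow_add, zpow_mul, zpow_ofNat, hz2, one_zpow, one_mul, zpow_one]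
    · rintro (rfl | rfl)
      · exact one_mem _
      · exact mem_zpowers _
  apply le_antisymm
  · intro g hg
    rw [mem_centralizer_singleton_iff]
    rcases (hmem _).1 ((mem_normalizer_iff.1 hg z).1 (mem_zpowers z)) with h | h
    · exact absurd (conj_eq_one_iff.1 h) hz1
    · calc g * z = g * z * g⁻¹ * g := by group
        _ = z * g := by rw [h]
  · exact (centralizer_singleton_le_zpowers z).trans (centralizer_le_norm _)

/-- groups of characteristic 2 type satisfy `KG` -/
theorem kg_of_charTwo {K : Type u} [Group K] (h : IsCharacteristicTwoType K) : KG K := by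
  intro z hz1 hz2
  have h1 := h.2 (zpowers z) (IsPGroup.of_card (n := 1) (by
    rw [Nat.card_zpowers, pow_one]; exact orderOf_eq_prime hz2 hz1)) (by rwa [Ne, zpowers_eq_bot])
  rw [chP_iff, ← normalizer_zpowers hz2 hz1]
  exact h1

variable {G : Type u} [Group G] [Finite G] {S : Sylow 2 G} {Q M : Subgroup G}

/-- elements of `Y` commute with `O₂(M)` -/
theorem Y_comm_T (_c : Cx S Q M) {x t : G} (hx : x ∈ largestPReducedOf 2 M) (ht : t ∈ pCoreOf 2 M) :
    x * t = t * x := mem_centralizer_iff.1 (pCoreOf_le_centralizer_largest 2 M ht) x hx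

/-- a Sylow 2-subgroup of the normal subgroup `K` -/
theorem exists_sylow_subgroupOf (S : Sylow 2 G) (K : Subgroup G) [hK : K.Normal] :
    ∃ S' : Sylow 2 ↥K, (S' : Subgroup ↥K) = (S : Subgroup G).subgroupOf K := by
  have hfact : Fact (Nat.Prime 2) := ⟨Nat.prime_two⟩
  have h1 : IsPGroup 2 ↥((S : Subgroup G).subgroupOf K) := by
    have := S.2.comap_of_injective K.subtype K.subtype_injective
    exact this
  have h2 : ¬ 2 ∣ ((S : Subgroup G).subgroupOf K).index := Lib.SylowNormalInf.not_dvd_relIndex S K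
  exact ⟨h1.toSylow h2, rfl⟩

/-- `O₂(M) ∩ K = O₂(M ∩ K)`, as subgroups of `K` -/
theorem core_subgroupOf (c : Cx S Q M) (K : Subgroup G) [hK : K.Normal] :
    L2Out.Filt.Core ((S : Subgroup G).subgroupOf K) (M.subgroupOf K) ((pCoreOf 2 M).subgroupOf K) where
  syl := fun k hk => c.st.SM hk
  le := fun k hk => pCoreOf_le 2 M hk
  two := (isPGroup_pCoreOf 2 M).comap_of_injective K.subtype K.subtype_injective
  nml := by
    intro g hg d hd
    exact (mem_normalizer_iff.1 (le_norm_pCoreOf 2 M hg) (d : G)).1 hd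
  max := by
    intro E hE hE2 hEn e he
    have h1 : E.map K.subtype ≤ M ⊓ K := by
      rintro _ ⟨y, hy, rfl⟩
      exact ⟨hE hy, y.2⟩
    have h2 : M ⊓ K ≤ normalizer (E.map K.subtype : Set G) := by
      have h3 : ∀ m ∈ M ⊓ K, ∀ y ∈ E.map K.subtype, m * y * m⁻¹ ∈ E.map K.subtype := by
        rintro m ⟨hmM, hmK⟩ _ ⟨y, hy, rfl⟩
        exact ⟨_, hEn ⟨m, hmK⟩ hmM y hy, rfl⟩
      exact L2Out.Filt.le_normalizer_of h3
    have h4 : E.map K.subtype ≤ pCoreOf 2 (M ⊓ K) := H229.le_pCoreOf h1 h2 (hE2.map _)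
    have h5 : pCoreOf 2 (M ⊓ K) ≤ pCoreOf 2 M :=
      H229.pCoreOf_le_pCoreOf inf_le_left ((le_inf le_normalizer (normal_norm hK _)).trans (norm_inf_le _ _))
    exact h5 (h4 ⟨e, he, rfl⟩)

/-- the image of `x` in `Aut(K)` is inner only if `x ∈ K` -/
theorem mem_of_inner {K : Subgroup G} [hK : K.Normal] (hC : centralizer (K : Set G) = ⊥) {x : G} {z : ↥K}
    (h : (MulAut.conjNormal x : MulAut ↥K) = MulAut.conj z) : x ∈ K := by
  have h1 : x⁻¹ * z ∈ centralizer (K : Set G) := by
    rw [mem_centralizer_iff]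
    intro k hk
    have h2 : (MulAut.conjNormal x : MulAut ↥K) ⟨k, hk⟩ = z * ⟨k, hk⟩ * z⁻¹ := by rw [h]; rfl
    have h3 : x * k * x⁻¹ = z * k * (z : G)⁻¹ := by
      have := congrArg Subtype.val h2
      rwa [MulAut.conjNormal_apply] at this
    calc k * (x⁻¹ * z) = x⁻¹ * (x * k * x⁻¹) * z := by group
      _ = x⁻¹ * z * k := by rw [h3]; group
  rw [hC, mem_bot] at h1
  have h2 : x = z := by rw [← mul_one x, ← h1]; group
  rw [h2]
  exact z.2

/-- `G` embeds into `Aut(K)` -/
theorem card_dvd_aut {K : Subgroup G} [hK : K.Normal] (hC : centralizer (K : Set G) = ⊥) :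
    Nat.card G ∣ Nat.card (MulAut ↥K) := by
  refine Subgroup.card_dvd_of_injective (MulAut.conjNormal : G →* MulAut ↥K) ?_
  rw [injective_iff_map_eq_one]
  intro g hg
  have h1 : g ∈ centralizer (K : Set G) := by
    rw [mem_centralizer_iff]
    intro k hk
    have h2 := congrArg Subtype.val (DFunLike.congr_fun hg (⟨k, hk⟩ : ↥K))
    rw [MulAut.conjNormal_apply] at h2
    calc k * g = g * k * g⁻¹ * g := by rw [h2]; rfl
      _ = g * k := by group
  rwa [hC, mem_bot] at h1

/-- a normal subgroup of index dividing four -/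
theorem comm_mem_of_index {K : Subgroup G} [hK : K.Normal] (h : K.index ∣ 4) :
    (∀ a b : G, a * b * a⁻¹ * b⁻¹ ∈ K) ∧ (∀ g : G, ∃ k : ℕ, g ^ 2 ^ k ∈ K) := by
  have hfact : Fact (Nat.Prime 2) := ⟨Nat.prime_two⟩
  have hcard : Nat.card (G ⧸ K) ∣ 4 := h
  constructor
  · have hcomm : ∀ a b : G ⧸ K, a * b = b * a := by
      have h1 : Nat.card (G ⧸ K) = 1 ∨ Nat.card (G ⧸ K) = 2 ∨ Nat.card (G ⧸ K) = 4 := by
        have h2 : Nat.card (G ⧸ K) ∈ Nat.divisors 4 := Nat.mem_divisors.2 ⟨hcard, by norm_num⟩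
        have h3 : Nat.divisors 4 = {1, 2, 4} := by decide
        rw [h3] at h2
        simpa using h2
      rcases h1 with h1 | h1 | h1
      · have := (Nat.card_eq_one_iff_unique.1 h1).1
        exact fun a b => Subsingleton.elim _ _
      · have := isCyclic_of_prime_card h1
        have hm : IsMulCommutative (G ⧸ K) := IsCyclic.isMulCommutative
        exact hm.is_comm.comm
      · exact (IsPGroup.isMulCommutative_of_card_eq_prime_sq (p := 2) (G := G ⧸ K) (by rw [h1]; norm_num)).is_comm.comm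
    intro a b
    rw [← QuotientGroup.eq_one_iff]
    have := hcomm (a : G ⧸ K) b
    rw [QuotientGroup.mk_mul, QuotientGroup.mk_mul, QuotientGroup.mk_mul, this, QuotientGroup.mk_inv,
      QuotientGroup.mk_inv]
    group
  · intro g
    refine ⟨2, ?_⟩
    rw [← QuotientGroup.eq_one_iff, QuotientGroup.mk_pow]
    exact orderOf_dvd_iff_pow_eq_one.1 ((_root_.orderOf_dvd_natCard _).trans hcard)

/-- an element of order four in `A₆` -/
def tA : ↥(alternatingGroup (Fin 6)) :=
  ⟨Equiv.swap 0 1 * Equiv.swap 1 2 * Equiv.swap 2 3 * Equiv.swap 4 5, by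
    rw [Equiv.Perm.mem_alternatingGroup]; decide +kernel⟩

theorem tA_four : tA ^ 4 = 1 := by decide +kernel

theorem tA_two : tA ^ 2 ≠ 1 := by decide +kernel

/-- elementary abelian 2-subgroups of `A₆` have order at most 4 -/
theorem card_le_four_of_a6 {K : Type*} [Group K] [Finite K] (e : K ≃* ↥(alternatingGroup (Fin 6))) {W : Subgroup K}
    (hW : IsPGroup 2 ↥W) (h2 : ∀ w ∈ W, w ^ 2 = 1) : Nat.card ↥W ≤ 4 := by
  have hfact : Fact (Nat.Prime 2) := ⟨Nat.prime_two⟩
  have hc : Nat.card K = 360 := by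
    rw [Nat.card_congr e.toEquiv]
    have h3 := nat_card_alternatingGroup (α := Fin 6)
    rw [h3, Nat.card_fin]
    rfl
  obtain ⟨n, hn⟩ := IsPGroup.iff_card.1 hW
  have hdvd : 2 ^ n ∣ 360 := by rw [← hn, ← hc]; exact card_subgroup_dvd_card W
  have hn3 : n ≤ 3 := by
    by_contra h
    have : 2 ^ 4 ∣ 360 := (pow_dvd_pow 2 (by omega)).trans hdvd
    omega
  by_contra hcon
  rw [hn] at hcon
  have hn' : n = 3 := by
    interval_cases n <;> omega
  subst hn'
  have hidx : ¬ 2 ∣ W.index := by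
    have h3 := W.card_mul_index
    rw [hn, hc] at h3
    omega
  obtain ⟨P, hP⟩ : ∃ P : Sylow 2 K, (P : Subgroup K) = W := ⟨hW.toSylow hidx, rfl⟩
  obtain ⟨t, ht⟩ : ∃ t : K, t = e.symm tA := ⟨_, rfl⟩
  have ht4 : t ^ 2 ^ 2 = 1 := by
    rw [ht, ← map_pow, show (2 : ℕ) ^ 2 = 4 by norm_num, tA_four, map_one]
  have ht2 : t ^ 2 ≠ 1 := by
    intro h
    apply tA_two
    apply e.symm.injective
    rw [map_pow, ← ht, h, map_one]
  have hp : IsPGroup 2 ↥(zpowers t) := by
    rw [IsPGroup.iff_card]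
    rw [Nat.card_zpowers]
    obtain ⟨m, -, hm⟩ := (Nat.dvd_prime_pow Nat.prime_two).1 (orderOf_dvd_iff_pow_eq_one.2 ht4)
    exact ⟨m, hm⟩
  obtain ⟨P', hP'⟩ := hp.exists_le_sylow
  obtain ⟨g, hg⟩ := MulAction.exists_smul_eq K P' P
  have h3 : g * t * g⁻¹ ∈ W := by
    rw [← hP, ← hg, Sylow.coe_subgroup_smul]
    exact Subgroup.smul_mem_pointwise_smul t (MulAut.conj g) _ (hP' (mem_zpowers _))
  have h4 := h2 _ h3
  rw [conj_pow] at h4
  exact ht2 (conj_eq_one_iff.1 h4)

/-- **The row of the groups of Lie type in characteristic 2.** -/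
theorem deadL_chevTwo : DeadL.{u} (fun K _ => IsChevSimple 2 K) := by
  intro G _ _ S Q M c K hK hKs hKc hC hP
  have hfact : Fact (Nat.Prime 2) := ⟨Nat.prime_two⟩
  have hct : IsCharacteristicTwoType ↥K := EvenType.ChevTwo.charTwo hKc hP
  have h2 : 2 ∣ Nat.card ↥K := hct.1.two_dvd
  obtain ⟨x, hx, hxK, hb⟩ := exists_bad_of_KG c h2 (kg_of_charTwo hct)
  obtain ⟨S', hS'⟩ := exists_sylow_subgroupOf S K
  obtain ⟨z, hzK, hzS, hzc, hz2, hz1⟩ := exists_z S K h2
  have hx2 : x * x = 1 := by rw [← pow_two]; exact pow_two_of_mem c hx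
  have hα2 : (MulAut.conjNormal x : MulAut ↥K) * MulAut.conjNormal x = 1 := by
    rw [← map_mul, hx2, map_one]
  have hcore := core_subgroupOf c K
  rw [← hS'] at hcore
  have hD1 : (pCoreOf 2 M).subgroupOf K ≠ ⊥ := by
    intro h
    have h3 : (⟨z, hzK⟩ : ↥K) ∈ (pCoreOf 2 M).subgroupOf K := c.Y_le_T (c.center_mem_Y hzc hz2)
    rw [h, mem_bot] at h3
    exact hz1 (congrArg Subtype.val h3)
  have hα : ∀ d ∈ (pCoreOf 2 M).subgroupOf K, (MulAut.conjNormal x : MulAut ↥K) d = d := by
    intro d hd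
    apply Subtype.ext
    have h3 : x * (d : G) = d * x := Y_comm_T c hx hd
    rw [MulAut.conjNormal_apply, h3]
    group
  rcases L2Out.Main.inner_or hKc hP hα2 hcore hD1 hα with ⟨k, hk⟩ | ⟨⟨e⟩⟩
  · exact hxK (mem_of_inner hC hk)
  · -- `A₆`
    have hK360 : Nat.card ↥K = 360 := by
      rw [Nat.card_congr e.toEquiv]
      have h3 := nat_card_alternatingGroup (α := Fin 6)
      rw [h3, Nat.card_fin]
      rfl
    have hA : Nat.card (MulAut ↥K) = 1440 := by
      rw [Nat.card_congr (MulAut.congr e).toEquiv, H824.ProdLem.card_aut_a6]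
    have hi : K.index ∣ 4 := by
      have h3 := card_dvd_aut hC
      rw [hA, ← K.card_mul_index, hK360, show 1440 = 360 * 4 by norm_num] at h3
      exact Nat.dvd_of_mul_dvd_mul_left (by norm_num) h3
    obtain ⟨hab, hG2⟩ := comm_mem_of_index hi
    have h4 : Nat.card ↥(largestPReducedOf 2 M ⊓ K : Subgroup G) ≤ 4 := by
      have h5 := card_le_four_of_a6 e (W := (largestPReducedOf 2 M).subgroupOf K)
        ((S.2.to_le (c.Y_le_T.trans c.T_le_S)).comap_of_injective K.subtype K.subtype_injective)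
        (fun w hw => Subtype.ext (pow_two_of_mem c hw))
      have h6 : Nat.card ↥((largestPReducedOf 2 M).subgroupOf K) =
          Nat.card ↥(largestPReducedOf 2 M ⊓ K : Subgroup G) := by
        rw [← Subgroup.inf_subgroupOf_right]
        exact Nat.card_congr (Subgroup.subgroupOfEquivOfLe inf_le_right).toEquiv
      rwa [h6] at h5
    exact hxK (Y_le_of_card_four c hK h2 h4 hab hG2 hx)

end Cfsg.Agent.H215.LT
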